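import Mathlib
import Cfsg.Agent.Core.PConstrained
import Cfsg.Agent.PGrp.Critical

/-!
# Core/Baer: the Baer trick and Bender's form of the `A × B` lemma (odd primes)
-/

set_option autoImplicit false

open Subgroup
open scoped Pointwise commutatorElement

namespace Cfsg.Agent.Core

variable {G : Type*} [Group G]

/-- Data for the Baer construction: class at most two, commutators of order dividing `2k+1`. -/
structure BaerData (D : Type*) [Group D] (k : ℕ) : Prop where
  cent : ∀ x y z : D, ⁅x, y⁆ * z = z * ⁅x, y⁆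
  pw : ∀ x y : D, ⁅x, y⁆ ^ (2 * k + 1) = 1

namespace BaerData

variable {D : Type*} [Group D] {k : ℕ}

theorem comm_mul_left (h : BaerData D k) (x y z : D) : ⁅x * y, z⁆ = ⁅x, z⁆ * ⁅y, z⁆ := by
  have h1 : ⁅x * y, z⁆ = x * ⁅y, z⁆ * x⁻¹ * ⁅x, z⁆ := by
    simp only [commutatorElement_def]; group
  rw [h1, ← h.cent y z x, mul_assoc _ x, mul_inv_cancel, mul_one, h.cent y z]

theorem comm_mul_right (h : BaerData D k) (x y z : D) : ⁅x, y * z⁆ = ⁅x, y⁆ * ⁅x, z⁆ := by
  have h1 : ⁅x, y * z⁆ = ⁅x, y⁆ * (y * ⁅x, z⁆ * y⁻¹) := by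
    simp only [commutatorElement_def]; group
  rw [h1, ← h.cent x z y, mul_assoc _ y, mul_inv_cancel, mul_one]

theorem commute (h : BaerData D k) (x y z : D) : Commute ⁅x, y⁆ z := h.cent x y z

theorem comm_central_left (h : BaerData D k) (x y z : D) (n : ℕ) : ⁅⁅x, y⁆ ^ n, z⁆ = 1 :=
  commutatorElement_eq_one_iff_commute.mpr ((h.commute x y z).pow_left n)

theorem comm_central_right (h : BaerData D k) (x y z : D) (n : ℕ) : ⁅z, ⁅x, y⁆ ^ n⁆ = 1 :=
  commutatorElement_eq_one_iff_commute.mpr ((h.commute x y z).pow_left n).symm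

end BaerData

/-- The Baer group. -/
def Baer {D : Type*} [Group D] {k : ℕ} (_h : BaerData D k) : Type _ := D

namespace Baer

variable {D : Type*} [Group D] {k : ℕ} {h : BaerData D k}

def toD (x : Baer h) : D := x
def ofD (h : BaerData D k) (x : D) : Baer h := x

@[simp] theorem toD_ofD (x : D) : (ofD h x).toD = x := rfl
theorem ext' {x y : Baer h} (e : x.toD = y.toD) : x = y := e

instance : Mul (Baer h) := ⟨fun x y => ofD h (⁅x.toD, y.toD⁆ ^ k * (x.toD * y.toD))⟩
instance : One (Baer h) := ⟨ofD h 1⟩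
instance : Inv (Baer h) := ⟨fun x => ofD h x.toD⁻¹⟩

theorem toD_mul (x y : Baer h) : (x * y).toD = ⁅x.toD, y.toD⁆ ^ k * (x.toD * y.toD) := rfl
theorem toD_one : (1 : Baer h).toD = 1 := rfl
theorem toD_inv (x : Baer h) : (x⁻¹).toD = x.toD⁻¹ := rfl

instance : CommGroup (Baer h) where
  mul_assoc x y z := by
    apply ext'
    simp only [toD_mul]
    generalize x.toD = a
    generalize y.toD = b
    generalize z.toD = c
    rw [h.comm_mul_left, h.comm_mul_left, h.comm_mul_right, h.comm_mul_right, h.comm_central_left,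
      h.comm_central_right, one_mul, one_mul, (h.commute a c _).mul_pow, (h.commute a b _).mul_pow]
    have e1 := ((h.commute b c a).pow_left k).eq
    have e2 := (((h.commute a b (⁅a, c⁆ ^ k * ⁅b, c⁆ ^ k))).pow_left k).eq
    calc ⁅a, c⁆ ^ k * ⁅b, c⁆ ^ k * (⁅a, b⁆ ^ k * (a * b) * c)
        = (⁅a, c⁆ ^ k * ⁅b, c⁆ ^ k * ⁅a, b⁆ ^ k) * (a * b * c) := by simp only [mul_assoc]
      _ = ⁅a, b⁆ ^ k * ⁅a, c⁆ ^ k * ((⁅b, c⁆ ^ k * a) * (b * c)) := by
          rw [← e2]; simp only [mul_assoc]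
      _ = _ := by rw [e1]; simp only [mul_assoc]
  one_mul x := by apply ext'; simp [toD_mul, toD_one]
  mul_one x := by apply ext'; simp [toD_mul, toD_one]
  inv_mul_cancel x := by
    apply ext'
    simp only [toD_mul, toD_one, toD_inv]
    rw [commutatorElement_eq_one_iff_commute.mpr (Commute.refl x.toD).inv_left]
    simp
  mul_comm x y := by
    apply ext'
    simp only [toD_mul]
    generalize x.toD = a
    generalize y.toD = b
    have e1 : a * b = ⁅a, b⁆ * (b * a) := by simp only [commutatorElement_def]; group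
    have e2 : ⁅b, a⁆ = ⁅a, b⁆⁻¹ := (commutatorElement_inv a b).symm
    rw [e1, e2, ← mul_assoc, ← pow_succ, inv_pow]
    congr 1
    rw [eq_inv_iff_mul_eq_one, ← pow_add, show k + 1 + k = 2 * k + 1 by ring, h.pw]

theorem toD_pow (x : Baer h) (n : ℕ) : (x ^ n).toD = x.toD ^ n := by
  induction n with
  | zero => rw [pow_zero, pow_zero, toD_one]
  | succ n ih =>
    rw [pow_succ, toD_mul, ih, commutatorElement_eq_one_iff_commute.mpr ((Commute.refl x.toD).pow_left n),
      one_pow, one_mul, pow_succ]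

instance [Finite D] : Finite (Baer h) := inferInstanceAs (Finite D)

/-- Automorphisms of `D` act on the Baer group. -/
def aut (h : BaerData D k) : MulAut D →* MulAut (Baer h) where
  toFun a :=
    { toFun := fun x => ofD h (a x.toD)
      invFun := fun x => ofD h (a⁻¹ x.toD)
      left_inv := fun x => by apply ext'; simp
      right_inv := fun x => by apply ext'; simp
      map_mul' := fun x y => by
        apply ext'
        simp only [toD_mul, toD_ofD, map_mul, map_pow, map_commutatorElement] }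
  map_one' := by ext x; rfl
  map_mul' a b := by ext x; rfl

theorem toD_aut (a : MulAut D) (x : Baer h) : (aut h a x).toD = a x.toD := rfl

end Baer

/-- Abelian case, for abstract actions. -/
theorem bender_abelian {H L : Type*} [Group H] [Finite H] [CommGroup L] [Finite L] {p : ℕ}
    [hp : Fact p.Prime] (hL : IsPGroup p L) (ρ : H →* MulAut L) {A Q : Subgroup H} (hA : IsPGroup p A)
    (hQ : (Nat.card Q).Coprime p) (hAQ : A ≤ normalizer (Q : Set H))
    (hC : ∀ v : L, (∀ a ∈ A, ρ a v = v) → ∀ q ∈ Q, ρ q v = v) : ∀ q ∈ Q, ∀ v : L, ρ q v = v := by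
  classical
  haveI : Fintype Q := Fintype.ofFinite Q
  let ψ : L →* L :=
    { toFun := fun v => ∏ q : Q, ρ q v
      map_one' := by simp
      map_mul' := fun v w => by simp [Finset.prod_mul_distrib] }
  have hψ : ∀ v, ψ v = ∏ q : Q, ρ q v := fun _ => rfl
  have h1 : ∀ q ∈ Q, ∀ v, ψ (ρ q v) = ψ v := by
    intro q hq v
    rw [hψ, hψ]
    refine Fintype.prod_equiv (Equiv.mulRight (⟨q, hq⟩ : Q)) _ _ fun x => ?_
    simp
  have h2 : ∀ a ∈ A, ∀ v, ψ (ρ a v) = ρ a (ψ v) := by
    intro a ha v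
    rw [hψ, hψ, map_prod]
    refine (Fintype.prod_equiv (Q.normalizerMonoidHom ⟨a, hAQ ha⟩).toEquiv _ _ fun x => ?_).symm
    have : ((Q.normalizerMonoidHom ⟨a, hAQ ha⟩).toEquiv x : H) = a * x * a⁻¹ := rfl
    rw [this, ← MulAut.mul_apply, ← MulAut.mul_apply, ← map_mul, ← map_mul]
    simp
  have hker : ψ.ker = ⊥ := by
    by_contra hne
    letI : MulAction A ψ.ker :=
      { smul := fun a v => ⟨ρ a v, by
          rw [MonoidHom.mem_ker, h2 a a.2, (MonoidHom.mem_ker.mp v.2), map_one]⟩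
        one_smul := fun v => Subtype.ext (by change ρ 1 v = v; simp)
        mul_smul := fun a b v => Subtype.ext (by change ρ (a * b : H) v = ρ a (ρ b v); simp) }
    have hd : p ∣ Nat.card ψ.ker := by
      obtain ⟨n, hn⟩ := (hL.to_subgroup ψ.ker).exists_card_eq
      rw [hn]
      refine dvd_pow_self p ?_
      rintro rfl
      exact hne (Subgroup.eq_bot_of_card_eq _ (by simpa using hn))
    obtain ⟨v, hv, hv1⟩ := hA.exists_fixed_point_of_prime_dvd_card_of_fixed_point ψ.ker hd
      (a := 1) (fun a => Subtype.ext (by change ρ a 1 = 1; simp))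
    have hv' : ∀ a ∈ A, ρ a v = v := fun a ha => congrArg Subtype.val (hv ⟨a, ha⟩)
    have h3 := MonoidHom.mem_ker.mp v.2
    rw [hψ, Finset.prod_congr rfl fun (q : Q) _ => hC v hv' q q.2, Finset.prod_const, Finset.card_univ,
      ← Nat.card_eq_fintype_card] at h3
    have h4 := PGrp.coprime_orderOf_of_isPGroup hL hQ (v : L)
    have h5 := Nat.eq_one_of_dvd_coprimes h4 (orderOf_dvd_of_pow_eq_one h3) dvd_rfl
    exact hv1 (Subtype.ext (orderOf_eq_one_iff.mp h5).symm)
  intro q hq v
  exact (MonoidHom.ker_eq_bot_iff ψ).mp hker (h1 q hq v)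

/-- Bender's lemma for class two and exponent `p`. -/
theorem bender_class_two [Finite G] {p : ℕ} [hp : Fact p.Prime] (hp2 : p ≠ 2) {D A Q : Subgroup G}
    (hD : ∀ x ∈ D, x ^ p = 1) (hD2 : ⁅⁅D, D⁆, D⁆ = ⊥) (hA : IsPGroup p A) (hQ : (Nat.card Q).Coprime p)
    (hAQ : A ≤ normalizer (Q : Set G)) (hAD : A ≤ normalizer (D : Set G)) (hQD : Q ≤ normalizer (D : Set G))
    (hC : D ⊓ centralizer (A : Set G) ≤ centralizer (Q : Set G)) : Q ≤ centralizer (D : Set G) := by
  obtain ⟨k, hk⟩ := hp.out.odd_of_ne_two hp2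
  have hB : BaerData D k := by
    refine ⟨fun x y z => Subtype.ext ?_, fun x y => Subtype.ext ?_⟩
    · have : ⁅(⁅(x : G), (y : G)⁆), (z : G)⁆ ∈ ⁅⁅D, D⁆, D⁆ :=
        commutator_mem_commutator (commutator_mem_commutator x.2 y.2) z.2
      rw [hD2, mem_bot, commutatorElement_eq_one_iff_mul_comm] at this
      exact this
    · rw [← hk]
      exact hD _ (⁅x, y⁆ : D).2
  have hL : IsPGroup p (Baer hB) := fun x => ⟨1, by
    apply Baer.ext'
    rw [Baer.toD_pow, pow_one, Baer.toD_one]
    exact Subtype.ext (hD _ x.toD.2)⟩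
  let ρ : normalizer (D : Set G) →* MulAut (Baer hB) := (Baer.aut hB).comp D.normalizerMonoidHom
  have hρ : ∀ (a : normalizer (D : Set G)) (v : Baer hB),
      ρ a v = v ↔ (a : G) * (v.toD : G) * (a : G)⁻¹ = (v.toD : G) := fun a v =>
    ⟨fun e => congrArg (fun w : Baer hB => (w.toD : G)) e, fun e => Baer.ext' (Subtype.ext e)⟩
  have key := bender_abelian hL ρ (A := A.subgroupOf _) (Q := Q.subgroupOf _)
    (hA.comap_of_injective _ (subtype_injective _)) (by rwa [card_subgroupOf_of_le hQD])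
    (subgroupOf_le_normalizer_subgroupOf hAQ _) (by
      intro v hv q hq
      rw [hρ]
      have : (v.toD : G) ∈ centralizer (Q : Set G) := hC ⟨v.toD.2, fun a ha => by
        have := (hρ ⟨a, hAD ha⟩ v).mp (hv ⟨a, hAD ha⟩ ha)
        rwa [mul_inv_eq_iff_eq_mul] at this⟩
      rw [this q hq, mul_inv_cancel_right])
  intro q hq d hd
  have := (hρ ⟨q, hQD hq⟩ (Baer.ofD hB ⟨d, hd⟩)).mp (key ⟨q, hQD hq⟩ hq _)
  rw [mul_inv_eq_iff_eq_mul] at this
  exact this.symm

/-- Bender's form of the `A × B` lemma: `p` odd, `A` a `p`-group normalizing the `p'`-group `Q`, both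
acting on the `p`-group `R`; if `Q` centralizes the elements of order `p` of `C_R(A)` then it
centralizes `R`. -/
theorem bender_ab [Finite G] {p : ℕ} [hp : Fact p.Prime] (hp2 : p ≠ 2) {R A Q : Subgroup G}
    (hR : IsPGroup p R) (hA : IsPGroup p A) (hQ : (Nat.card Q).Coprime p)
    (hAQ : A ≤ normalizer (Q : Set G)) (hAR : A ≤ normalizer (R : Set G)) (hQR : Q ≤ normalizer (R : Set G))
    (hC : ∀ x ∈ R ⊓ centralizer (A : Set G), x ^ p = 1 → x ∈ centralizer (Q : Set G)) :
    Q ≤ centralizer (R : Set G) := by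
  obtain ⟨D, hDR, hN, hD, -, hD2, -, hcrit⟩ := PGrp.exists_critical_odd_of hp2 hR
  have := bender_class_two hp2 hD hD2 hA hQ hAQ (hAR.trans hN) (hQR.trans hN)
    (fun x hx => hC x ⟨hDR hx.1, hx.2⟩ (hD x hx.1))
  exact fun q hq => hcrit q (hQR hq) (hQ.coprime_dvd_left (Q.orderOf_dvd_natCard hq)) (this hq)

/-- The Thompson–Bender signalizer lemma. -/
theorem thompson_bender [Finite G] {p : ℕ} [hp : Fact p.Prime] (hp2 : p ≠ 2) (hG : IsPConstrained p G)
    {A Q : Subgroup G} (hA : IsPGroup p A)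
    (hΩ : ∀ x ∈ centralizer (A : Set G), orderOf x = p → x ∈ A) (hQ : (Nat.card Q).Coprime p)
    (hAQ : A ≤ normalizer (Q : Set G)) : Q ≤ pPrimeCore p G := by
  set N := pPrimeCore p G with hN
  set f := QuotientGroup.mk' N with hf
  have hcA : (Nat.card A).Coprime (Nat.card N) := coprime_pPrimeCore_of_isPGroup hA
  have hV := isPConstrained_iff.mp hG
  have hQ' : (Nat.card (Q.map f)).Coprime p := hQ.coprime_dvd_left (card_map_dvd Q f)
  have h1 : Q.map f ≤ centralizer (pCore p (G ⧸ N) : Set (G ⧸ N)) := by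
    refine bender_ab hp2 (pCore_isPGroup p) (hA.map f) hQ' (map_le_normalizer_map hAQ f)
      le_normalizer_of_normal le_normalizer_of_normal ?_
    rintro x ⟨hxV, hxA⟩ hxp
    rw [centralizer_map_mk' A N hcA (Or.inl (solvable_of_isPGroup hA))] at hxA
    obtain ⟨y, hy, rfl⟩ := hxA
    have hyN : y ^ p ∈ N := by
      rw [← map_pow] at hxp
      exact (QuotientGroup.eq_one_iff _).mp hxp
    have hco : (Nat.card N).Coprime p := pPrimeCore_coprime p
    have hz : (y ^ Nat.card N) ^ p = 1 := by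
      rw [← pow_mul, mul_comm, pow_mul]
      exact orderOf_dvd_iff_pow_eq_one.mp (N.orderOf_dvd_natCard hyN)
    have hzA : y ^ Nat.card N ∈ A := by
      by_cases h1 : y ^ Nat.card N = 1
      · rw [h1]; exact A.one_mem
      · exact hΩ _ (pow_mem hy _) (orderOf_eq_prime hz h1)
    have hxA : f y ∈ A.map f := by
      obtain ⟨m, hm⟩ := exists_pow_eq_self_of_coprime (x := f y) (n := Nat.card N)
        (hco.coprime_dvd_right (orderOf_dvd_of_pow_eq_one hxp))
      rw [← hm, ← map_pow f y]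
      exact pow_mem (mem_map_of_mem f hzA) m
    intro q hq
    have e1 : ⁅q, f y⁆ ∈ Q.map f := by
      have := conj_mem_of_le_normalizer (map_le_normalizer_map hAQ f) hxA (inv_mem hq)
      rw [commutatorElement_def, mul_assoc, mul_assoc, ← mul_assoc (f y)]
      exact mul_mem hq this
    have e2 : ⁅q, f y⁆ ∈ pCore p (G ⧸ N) := by
      rw [commutatorElement_def]
      exact mul_mem ((inferInstance : (pCore p (G ⧸ N)).Normal).conj_mem _ hxV q) (inv_mem hxV)
    exact commutatorElement_eq_one_iff_mul_comm.mp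
      (eq_one_of_mem_of_coprime (coprime_of_isPGroup (pCore_isPGroup p) hQ') e1 e2)
  have h2 := eq_bot_of_le_centralizer_pCore hV hQ' h1
  rwa [Subgroup.map_eq_bot_iff, QuotientGroup.ker_mk'] at h2

end Cfsg.Agent.Core
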